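import Cfsg.Agent.H617.Pb.Defs
import Cfsg.Agent.H735.S4822.Orb
import Cfsg.Agent.CharactersDeep.ExtUnique
import Cfsg.Agent.CharactersDeep.CosetAverage
import Cfsg.Agent.Characters.CCBasic

/-!
# S4822, B4: Clifford theory for abelian quotients (helper47)
-/

set_option autoImplicit false

open Cfsg Cfsg.Agent.H617.Pb Cfsg.Agent.Blocks Cfsg.Agent.Blocks.Local Cfsg.Agent.Characters.Core

namespace Cfsg.Agent.H47.Pb

universe u

variable {Γ : Type u} [Group Γ] [Finite Γ] {p : ℕ} [Fact p.Prime] {M : Ideal AlgInt}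

/-- subgroups which contain the commutators are normal -/
theorem normal_of_comm {G : Type u} [Group G] {L K : Subgroup G} (hcomm : ∀ a b : G, a * b * a⁻¹ * b⁻¹ ∈ L)
    (hLK : L ≤ K) : K.Normal := by
  refine ⟨fun x hx g => ?_⟩
  have h1 : g * x * g⁻¹ = (g * x * g⁻¹ * x⁻¹) * x := by group
  rw [h1]
  exact K.mul_mem (hLK (hcomm g x)) hx

/-- conjugacy of the members of a set of irreducible characters -/
def conjS {G : Type u} [Group G] (N : Subgroup G) [N.Normal] (X : Set (IrrCharacter N)) : Setoid X where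
  r a b := ∃ g : G, b.1 = Covering.conjIrr N g a.1
  iseqv :=
    { refl := fun a => ⟨1, (Covering.conjIrr_one N _).symm⟩
      symm := by
        rintro a b ⟨g, hg⟩
        exact ⟨g⁻¹, by rw [hg, Covering.conjIrr_conjIrr, mul_inv_cancel, Covering.conjIrr_one]⟩
      trans := by
        rintro a b c ⟨g, hg⟩ ⟨h, hh⟩
        exact ⟨g * h, by rw [hh, hg, Covering.conjIrr_conjIrr]⟩ }

theorem orb_le (hM : IsPModular p M) (N L K : Subgroup Γ) [hN : N.Normal] (hNL : N ≤ L)
    (hcomm : ∀ a b : Γ, a * b * a⁻¹ * b⁻¹ ∈ L) (hp : ¬ p ∣ N.index) (P : Sylow p Γ)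
    (hK : K = Subgroup.centralizer ((P : Subgroup Γ) : Set Γ) ⊔ L) {κ : Type} [Finite κ] (e : κ → IrrCharacter N)
    (he : ∀ j, e j ∈ principalBlock M N) (X : Set (IrrCharacter N)) (hX : X ⊆ principalBlock M N)
    (hXe : ∀ ψ ∈ principalBlock M N, ψ ∉ X → ∃ j, ψ = e j) :
    orb M N L ≤ K.index * Nat.card (Quotient (conjS N X)) + Nat.card κ := by
  classical
  have hLn : L.Normal := normal_of_comm hcomm le_rfl
  have hfin : Finite (IrrCharacter N) := finite_irr
  have hfinq : Finite (Quotient (conjS N X)) := Finite.of_surjective _ Quotient.mk_surjective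
  have hKn : K.Normal := normal_of_comm hcomm (hK ▸ le_sup_right)
  let F : (Quotient (conjS N X) × (Γ ⧸ K)) ⊕ κ → (Quot (fun θ θ' : ↥(principalBlock M ↥N) =>
    ∃ c ∈ L, ∀ x y : ↥N, (y : Γ) = c * x * c⁻¹ →
      ((θ' : IrrCharacter ↥N) : ↥N → ℂ) y = ((θ : IrrCharacter ↥N) : ↥N → ℂ) x)) := fun z =>
      Sum.elim (fun z => Quot.mk _ ⟨Covering.conjIrr N z.2.out z.1.out.1,
        H611.CoverPrincipal.conjIrr_mem_principalBlock N _ (hX z.1.out.2)⟩)
        (fun j => Quot.mk _ ⟨e j, he j⟩) z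
  have hF : Function.Surjective F := by
    intro q
    obtain ⟨x, rfl⟩ := Quot.exists_rep q
    by_cases hx : x.1 ∈ X
    · obtain ⟨g, hg⟩ : ∃ g : Γ, x.1 = Covering.conjIrr N g (Quotient.mk (conjS N X) ⟨x.1, hx⟩).out.1 :=
        Quotient.exact (Quotient.out_eq (Quotient.mk (conjS N X) ⟨x.1, hx⟩))
      refine ⟨Sum.inl (Quotient.mk (conjS N X) ⟨x.1, hx⟩, QuotientGroup.mk g), ?_⟩
      show Quot.mk _ (⟨Covering.conjIrr N (QuotientGroup.mk g : Γ ⧸ K).out _, _⟩ :
        ↥(principalBlock M ↥N)) = Quot.mk _ x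
      obtain ⟨k, hk⟩ := QuotientGroup.mk_out_eq_mul K g
      have hk2 : (k : Γ) ∈ Subgroup.centralizer ((P : Subgroup Γ) : Set Γ) ⊔ L := hK ▸ k.2
      obtain ⟨c, hc, l, hl, hcl⟩ := (Subgroup.mem_sup_of_normal_right (t := L)).1 hk2
      have hc2 : c ∈ N ⊔ Subgroup.centralizer ((P : Subgroup Γ) : Set Γ) := Subgroup.mem_sup_right hc
      apply Quot.sound
      refine ⟨l, hl, ?_⟩
      intro u v huv
      have h1 : Covering.conjIrr N (QuotientGroup.mk g : Γ ⧸ K).out
          (Quotient.mk (conjS N X) ⟨x.1, hx⟩).out.1 = Covering.conjIrr N l x.1 := by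
        rw [hk, ← hcl, ← mul_assoc, ← Covering.conjIrr_conjIrr, ← Covering.conjIrr_conjIrr, ← hg,
          H735.S4822.conjIrr_eq hM N hp P hc2 x.2]
      show (x.1 : N → ℂ) v = (Covering.conjIrr N (QuotientGroup.mk g : Γ ⧸ K).out _ : N → ℂ) u
      have hv : v = MulAut.conjNormal l u := Subtype.ext (by rw [huv, MulAut.conjNormal_apply])
      rw [h1, Covering.conjIrr_apply, hv]
    · obtain ⟨j, hj⟩ := hXe x.1 x.2 hx
      refine ⟨Sum.inr j, ?_⟩
      show Quot.mk _ (⟨e j, _⟩ : ↥(principalBlock M ↥N)) = Quot.mk _ x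
      congr 1
      exact Subtype.ext hj.symm
  have h1 := Nat.card_le_card_of_surjective F hF
  rw [Nat.card_sum, Nat.card_prod, ← Subgroup.index_eq_card, mul_comm] at h1
  exact h1

theorem card_conjClasses_quot {G : Type u} [Group G] [Finite G] {L K : Subgroup G} [K.Normal]
    (hcomm : ∀ a b : G, a * b * a⁻¹ * b⁻¹ ∈ L) (hLK : L ≤ K) : Nat.card (IrrCharacter (G ⧸ K)) = K.index := by
  rw [Subgroup.index_eq_card]
  refine Characters.CCBasic.card_irr_of_comm ?_
  intro a b
  obtain ⟨a, rfl⟩ := QuotientGroup.mk_surjective a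
  obtain ⟨b, rfl⟩ := QuotientGroup.mk_surjective b
  rw [← QuotientGroup.mk_mul, ← QuotientGroup.mk_mul, eq_comm, QuotientGroup.eq]
  have h1 := hLK (hcomm a⁻¹ b⁻¹)
  have h2 : (b * a)⁻¹ * (a * b) = a⁻¹ * b⁻¹ * a⁻¹⁻¹ * b⁻¹⁻¹ := by group
  rw [h2]
  exact h1

/-- B4: `k₀(Γ) ≥ a + o` with `a = |Γ / L C(P)|` -/
theorem KI (hM : IsPModular p M) (N L : Subgroup Γ) [N.Normal] (hNL : N ≤ L)
    (hcomm : ∀ a b : Γ, a * b * a⁻¹ * b⁻¹ ∈ L) (hp : ¬ p ∣ N.index) :
    ∃ a o : ℕ, a + o ≤ k0 M Γ ∧ orb M N L ≤ a * o + 1 ∧ (L = ⊤ → a = 1) ∧ 1 ≤ a := by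
  classical
  have hMp : M.IsPrime := isPrime_of_isPModular hM
  obtain ⟨P⟩ : Nonempty (Sylow p Γ) := inferInstance
  have hfin : Finite (IrrCharacter N) := finite_irr
  set K : Subgroup Γ := Subgroup.centralizer ((P : Subgroup Γ) : Set Γ) ⊔ L with hK
  have hLK : L ≤ K := le_sup_right
  have hKn : K.Normal := normal_of_comm hcomm hLK
  let one : IrrCharacter N := ⟨fun _ => 1, Blocks.Basic.isIrrCharacter_one⟩
  let X : Set (IrrCharacter N) := {ψ | ψ ∈ principalBlock M N ∧ (ψ : N → ℂ) ≠ 1}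
  have hfinq : Finite (Quotient (conjS N X)) := Finite.of_surjective _ Quotient.mk_surjective
  refine ⟨K.index, Nat.card (Quotient (conjS N X)), ?_, ?_, ?_, ?_⟩
  · have h1 := H735.S4822.count_family hM N hp P K (hNL.trans hLK) le_sup_left
      (fun q : Quotient (conjS N X) => q.out.1) (fun q => q.out.2.1) (fun q => q.out.2.2) (by
        intro i j g h
        rw [← Quotient.out_eq i, ← Quotient.out_eq j]
        exact Quotient.sound ⟨g, h⟩)
    rw [← card_irr, card_conjClasses_quot hcomm hLK] at h1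
    exact h1
  · have h1 := orb_le hM N L K hNL hcomm hp P hK (fun _ : Unit => one)
      (fun _ => Blocks.PrincipalSection.one_mem_principalBlock) X (fun ψ h => h.1) (by
        intro ψ hψ hn
        refine ⟨(), ?_⟩
        by_contra hne
        exact hn ⟨hψ, fun h => hne (Subtype.ext h)⟩)
    simpa using h1
  · intro h
    have : K = ⊤ := top_le_iff.1 (h ▸ hLK)
    rw [this, Subgroup.index_top]
  · exact Nat.one_le_iff_ne_zero.2 Subgroup.index_ne_zero_of_finite

/-- the linear characters of an abelian quotient -/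
theorem exists_lin {G : Type u} [Group G] {L K : Subgroup G} [K.Normal]
    (hcomm : ∀ a b : G, a * b * a⁻¹ * b⁻¹ ∈ L) (hLK : L ≤ K) (lam : IrrCharacter (G ⧸ K)) :
    ∃ f : G →* ℂˣ, ∀ g, (H633.Principal.infl K lam : G → ℂ) g = f g := by
  have hc : ∀ a b : G ⧸ K, a * b = b * a := by
    intro a b
    obtain ⟨a, rfl⟩ := QuotientGroup.mk_surjective a
    obtain ⟨b, rfl⟩ := QuotientGroup.mk_surjective b
    rw [← QuotientGroup.mk_mul, ← QuotientGroup.mk_mul, eq_comm, QuotientGroup.eq]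
    have h1 := hLK (hcomm a⁻¹ b⁻¹)
    have h2 : (b * a)⁻¹ * (a * b) = a⁻¹ * b⁻¹ * a⁻¹⁻¹ * b⁻¹⁻¹ := by group
    rw [h2]
    exact h1
  obtain ⟨f, hf⟩ := Characters.CCBasic.exists_hom_of_comm hc lam.2
  refine ⟨f.comp (QuotientGroup.mk' K), fun g => ?_⟩
  rw [H633.Principal.infl_apply, hf]
  rfl

/-- multiplication with a linear character of the principal block -/
theorem mul_lin_mem (hM : IsPModular p M) {χ lam χ' : IrrCharacter Γ} (hχ : χ ∈ principalBlock M Γ)
    (hlam : lam ∈ principalBlock M Γ) (f : Γ →* ℂˣ) (hf : ∀ g, (lam : Γ → ℂ) g = f g)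
    (h : ∀ g, (χ' : Γ → ℂ) g = (χ : Γ → ℂ) g * f g) : χ' ∈ principalBlock M Γ := by
  have hMp : M.IsPrime := isPrime_of_isPModular hM
  rw [Blocks.PrincipalSection.mem_principalBlock_iff] at *
  intro g
  have h1 := hχ g
  have h2 := hlam g
  have hr : MemLocalRing M ((f g : ℂˣ) : ℂ) := by
    rw [← hf]
    exact memLocalRing_of_isIntegral (Characters.GaloisBasic.isIntegral_apply (isIrr_isCharacter lam.2) g)
  have h3 := memLocalIdeal_mul_left hr h1
  have h4 := memLocalIdeal_add h3 h2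
  convert h4 using 1
  rw [Blocks.Basic.centralChar_def, Blocks.Basic.centralChar_def, Blocks.Basic.centralChar_def,
    Blocks.Basic.centralChar_def, h g, h 1, hf g, hf 1, map_one, Units.val_one]
  ring

/-- B4: with a nontrivial character which extends -/
theorem KI_rho (hM : IsPModular p M) (N L : Subgroup Γ) [hNn : N.Normal] (hNL : N ≤ L)
    (hcomm : ∀ a b : Γ, a * b * a⁻¹ * b⁻¹ ∈ L) (hp : ¬ p ∣ N.index)
    (hρ : ∃ χ ∈ principalBlock M Γ, ∃ θ ∈ principalBlock M ↥N, (∃ x, (θ : ↥N → ℂ) x ≠ 1) ∧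
      ∀ x : ↥N, (χ : Γ → ℂ) x = (θ : ↥N → ℂ) x) :
    ∃ a o : ℕ, 2 * a + o ≤ k0 M Γ ∧ orb M N L ≤ a * o + 2 ∧ 1 ≤ a := by
  classical
  have hMp : M.IsPrime := isPrime_of_isPModular hM
  obtain ⟨P⟩ : Nonempty (Sylow p Γ) := inferInstance
  obtain ⟨χ₀, hχ₀, θ₀, hθ₀, ⟨x₀, hx₀⟩, hres⟩ := hρ
  have hfΓ : Fintype Γ := Fintype.ofFinite Γ
  have hfN : Fintype N := Fintype.ofFinite N
  have hfin : Finite (IrrCharacter N) := finite_irr
  have hfin2 : Finite (IrrCharacter Γ) := finite_irr
  set K : Subgroup Γ := Subgroup.centralizer ((P : Subgroup Γ) : Set Γ) ⊔ L with hK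
  have hLK : L ≤ K := le_sup_right
  have hNK : N ≤ K := hNL.trans hLK
  have hKn : K.Normal := normal_of_comm hcomm hLK
  have hCK : Subgroup.centralizer ((P : Subgroup Γ) : Set Γ) ≤ K := le_sup_left
  have hfinQ : Finite (IrrCharacter (Γ ⧸ K)) := finite_irr
  have hKidx : ¬ p ∣ K.index := fun h => hp (h.trans (Subgroup.index_dvd_of_le hNK))
  let one : IrrCharacter N := ⟨fun _ => 1, Blocks.Basic.isIrrCharacter_one⟩
  let X : Set (IrrCharacter N) := {ψ | ψ ∈ principalBlock M N ∧ (ψ : N → ℂ) ≠ 1 ∧ ψ ≠ θ₀}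
  have hfinq : Finite (Quotient (conjS N X)) := Finite.of_surjective _ Quotient.mk_surjective
  -- `θ₀` is invariant
  have hinv : ∀ g : Γ, Covering.conjIrr N g θ₀ = θ₀ := by
    intro g
    apply Subtype.ext
    funext n
    rw [Covering.conjIrr_apply, ← hres, ← hres, MulAut.conjNormal_apply]
    exact isIrr_isClassFunction χ₀.2 (n : Γ) g
  have hχ₀N : (fun n : N => (χ₀ : Γ → ℂ) n) = (θ₀ : N → ℂ) := funext hres
  have hirr₀ : IsIrrCharacter N (fun n : N => (χ₀ : Γ → ℂ) n) := by rw [hχ₀N]; exact θ₀.2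
  refine ⟨K.index, Nat.card (Quotient (conjS N X)), ?_, ?_, ?_⟩
  · have hPn : (P : Subgroup Γ) ≤ Subgroup.normalizer (N : Set Γ) := by
      rw [Subgroup.normalizer_eq_top]; exact le_top
    choose χ hχ hover using fun q : Quotient (conjS N X) =>
      H656.OverPrincipal.exists_over hM N P hPn q.out.1 q.out.2.1
    choose f hf using fun lam : IrrCharacter (Γ ⧸ K) => exists_lin (L := L) hcomm hLK lam
    -- the products
    let pr : IrrCharacter (Γ ⧸ K) → IrrCharacter Γ := fun lam =>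
      ⟨fun g => (χ₀ : Γ → ℂ) g * f lam g, CharactersDeep.ExtUnique.isIrr_mul_hom χ₀.2 (f lam)⟩
    have hlam : ∀ lam, H633.Principal.infl K lam ∈ principalBlock M Γ := fun lam =>
      H735.S4822.infl_mem hM P K hCK hKidx lam
    have hpr : ∀ lam, pr lam ∈ principalBlock M Γ := fun lam =>
      mul_lin_mem hM hχ₀ (hlam lam) (f lam) (hf lam) (fun g => rfl)
    have hfN1 : ∀ lam (n : N), (f lam (n : Γ) : ℂ) = 1 := by
      intro lam n
      rw [← hf, H633.Principal.infl_apply, (QuotientGroup.eq_one_iff (n : Γ)).2 (hNK n.2)]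
      have h1 : (H633.Principal.infl K lam : Γ → ℂ) 1 = 1 := by rw [hf, map_one, Units.val_one]
      rw [H633.Principal.infl_apply, QuotientGroup.mk_one] at h1
      exact h1
    have hprN : ∀ lam, (fun n : N => (pr lam : Γ → ℂ) n) = (θ₀ : N → ℂ) := by
      intro lam
      funext n
      show (χ₀ : Γ → ℂ) n * f lam n = _
      rw [hfN1, mul_one, hres]
    have hinflN : ∀ lam, (fun n : N => (H633.Principal.infl K lam : Γ → ℂ) n) = 1 := by
      intro lam
      funext n
      rw [hf, hfN1]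
      rfl
    let F : (IrrCharacter (Γ ⧸ K) ⊕ IrrCharacter (Γ ⧸ K)) ⊕ Quotient (conjS N X) → principalBlock M Γ := fun z =>
      Sum.elim (fun z => Sum.elim (fun lam => ⟨H633.Principal.infl K lam, hlam lam⟩) (fun lam => ⟨pr lam, hpr lam⟩) z)
        (fun i => ⟨χ i, hχ i⟩) z
    have hθ₀1 : (θ₀ : N → ℂ) ≠ 1 := fun h => hx₀ (by rw [h]; rfl)
    have hcross1 : ∀ lam mu, H633.Principal.infl K lam ≠ pr mu := by
      intro lam mu h
      apply hθ₀1
      rw [← hprN mu, ← h, hinflN]
    have hcross2 : ∀ lam i, H633.Principal.infl K lam ≠ χ i := by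
      intro lam i h
      apply hover i
      rw [← h, hinflN]
      exact classInner_irr_ne isIrr_one i.out.1.2 i.out.2.2.1.symm
    have hcross3 : ∀ lam i, pr lam ≠ χ i := by
      intro lam i h
      apply hover i
      rw [← h, hprN]
      exact classInner_irr_ne θ₀.2 i.out.1.2 (fun h => i.out.2.2.2 (Subtype.ext h.symm))
    have hinj1 : ∀ lam mu, H633.Principal.infl K lam = H633.Principal.infl K mu → lam = mu := by
      intro lam mu h
      apply Subtype.ext
      funext x
      obtain ⟨g, rfl⟩ := QuotientGroup.mk_surjective x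
      rw [← H633.Principal.infl_apply, h, H633.Principal.infl_apply]
    have hinj2 : ∀ lam mu, pr lam = pr mu → lam = mu := by
      intro lam mu h
      apply hinj1
      apply Subtype.ext
      funext g
      rw [hf, hf]
      -- a point of the coset where `χ₀` does not vanish
      have h1 := CharactersDeep.CosetAverage.cosetAverage_self N (χ₀ : Γ → ℂ) χ₀.2 hirr₀ g
      obtain ⟨n, hn⟩ : ∃ n : N, (χ₀ : Γ → ℂ) ((n : Γ) * g) ≠ 0 := by
        by_contra hcon
        push Not at hcon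
        rw [Finset.sum_eq_zero (fun n _ => by rw [hcon n, zero_mul]), mul_zero] at h1
        exact zero_ne_one h1
      have h2 : (χ₀ : Γ → ℂ) ((n : Γ) * g) * f lam ((n : Γ) * g) = (χ₀ : Γ → ℂ) ((n : Γ) * g) * f mu ((n : Γ) * g) :=
        congrArg (fun z : IrrCharacter Γ => (z : Γ → ℂ) ((n : Γ) * g)) h
      have h3 := mul_left_cancel₀ hn h2
      rw [map_mul, map_mul, Units.val_mul, Units.val_mul, hfN1, hfN1, one_mul, one_mul] at h3
      exact h3
    have hinj3 : ∀ i j, χ i = χ j → i = j := by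
      intro i j h1
      have h2 := hover j
      rw [← h1] at h2
      obtain ⟨g, hg⟩ := Characters.Clifford.exists_conj_of_constituents N (χ i).2 i.out.1.2 j.out.1.2
        (hover i) h2
      rw [← Quotient.out_eq i, ← Quotient.out_eq j]
      exact Quotient.sound ⟨g, Subtype.ext (by rw [hg]; rfl)⟩
    have hF : Function.Injective F := by
      rintro ((lam | lam) | i) ((mu | mu) | j) h
      · rw [hinj1 lam mu (congrArg Subtype.val h)]
      · exact absurd (congrArg Subtype.val h) (hcross1 lam mu)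
      · exact absurd (congrArg Subtype.val h) (hcross2 lam j)
      · exact absurd (congrArg Subtype.val h).symm (hcross1 mu lam)
      · rw [hinj2 lam mu (congrArg Subtype.val h)]
      · exact absurd (congrArg Subtype.val h) (hcross3 lam j)
      · exact absurd (congrArg Subtype.val h).symm (hcross2 mu i)
      · exact absurd (congrArg Subtype.val h).symm (hcross3 mu i)
      · rw [hinj3 i j (congrArg Subtype.val h)]
    have h := Nat.card_le_card_of_injective F hF
    rw [Nat.card_sum, Nat.card_sum, card_conjClasses_quot hcomm hLK] at h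
    have h' : k0 M Γ = Nat.card (principalBlock M Γ) := rfl
    omega
  · have h1 := orb_le hM N L K hNL hcomm hp P hK (fun b : Bool => if b then one else θ₀)
      (fun b => by
        cases b
        · exact hθ₀
        · exact Blocks.PrincipalSection.one_mem_principalBlock) X (fun ψ h => h.1) (by
        intro ψ hψ hn
        by_cases h1 : (ψ : N → ℂ) = 1
        · exact ⟨true, Subtype.ext h1⟩
        · refine ⟨false, ?_⟩
          by_contra hne
          exact hn ⟨hψ, h1, hne⟩)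
    simpa using h1
  · exact Nat.one_le_iff_ne_zero.2 Subgroup.index_ne_zero_of_finite

end Cfsg.Agent.H47.Pb
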